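/-
Standard subgroups of type `2.Ru`: the abstract argument.
-/
import Cfsg.Agent.STD1.Ctx
import Mathlib.GroupTheory.Transfer

set_option autoImplicit false

namespace Cfsg.Agent.H57Ru

open Subgroup STD1
open scoped commutatorElement

theorem comm_eq_one {K : Type*} [Group K] [Finite K] (hR : ∀ R : Sylow 2 K, IsCyclic (R : Subgroup K))
    (k l : K) (h : ⁅k, l⁆ ^ 16 = 1) : ⁅k, l⁆ = 1 := by
  have h1 : orderOf ⁅k, l⁆ ∣ 2 ^ 4 := orderOf_dvd_of_pow_eq_one h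
  have key : ∀ n, ¬ 2 ∣ n → orderOf ⁅k, l⁆ ∣ n → ⁅k, l⁆ = 1 := fun n h2 h3 => orderOf_eq_one_iff.1
    (Nat.eq_one_of_dvd_coprimes ((Nat.prime_two.coprime_iff_not_dvd.2 h2).pow_left 4) h1 h3)
  by_cases h2 : 2 ∣ Nat.card K
  · obtain ⟨P⟩ : Nonempty (Sylow 2 K) := inferInstance
    have hP := (hR P).normalizer_le_centralizer ((Nat.minFac_eq_two_iff _).2 h2)
    have := hR P
    refine key _ (MonoidHom.not_dvd_card_ker_transferSylow P hP) (orderOf_dvd_natCard _ ?_)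
    rw [MonoidHom.mem_ker, map_commutatorElement, commutatorElement_eq_one_iff_mul_comm]
    exact IsCyclic.commGroup.mul_comm _ _
  · exact key _ h2 (_root_.orderOf_dvd_natCard _)

variable {X Y G : Type*} [Group X] [Group Y] [Group G]

/-- commutators in the centraliser are not 2-elements -/
def Cy (φ : X →* G) : Prop := ∀ k l, InK φ k → InK φ l → ⁅k, l⁆ ^ 16 = 1 → ⁅k, l⁆ = 1

theorem Cy.map {φ : X →* G} (h : Cy φ) (α : G ≃* G) (β : X ≃* X) :
    Cy ((α.toMonoidHom.comp φ).comp β.toMonoidHom) := fun k l hk hl e => by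
  have k1 : ∀ k, InK ((α.toMonoidHom.comp φ).comp β.toMonoidHom) k → InK φ (α.symm k) := fun k h b =>
    α.injective (by simpa using h (β.symm b))
  have := h _ _ (k1 k hk) (k1 l hl) (by rw [← map_commutatorElement, ← map_pow, e, map_one])
  rwa [← map_commutatorElement, MulEquiv.map_eq_one_iff] at this

/-- commutators of squares of elements centralising `a` -/
def Gd (π : X →* Y) (a : Y) (w : X) : Prop :=
  ∃ u v, π u * a = a * π u ∧ π v * a = a * π v ∧ w = ⁅u ^ 2, v ^ 2⁆ ∧ π w ^ 4 = 1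

/-- the facts about the double cover -/
structure Fac (π : X →* Y) (z : X) (a f : Y) : Prop where
  ker : ∀ x, π x = 1 ↔ x = 1 ∨ x = z
  surj : Function.Surjective π
  inv : ∀ y : X, y * y = 1 → π y = 1 ∨ IsConj a (π y)
  af : a * f = f * a
  f5 : f ^ 5 = 1
  sq : ∀ e, π e = a → ∃ w w', Gd π a w ∧ Gd π a w' ∧ w * w' * (w * w') = e ∧ π (w * w') * f = f * π (w * w')
  nc : ∃ w, Gd π a w ∧ π w * f ≠ f * π w
  cen : ∀ g y : Y, g * a = a * g → g ^ 5 = 1 → g ≠ 1 → y * a = a * y → y * g = g * y → y * y = 1 →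
    y = 1 ∨ y = a

variable {π : X →* Y} {z : X} {a f : Y} {n : ℕ} {φ ψ : X →* G}

theorem comm_dec (h : Ctx z n φ) {x b : X} {k : G} (hk : InK φ k)
    (e : φ x * k * φ b = φ b * (φ x * k)) : x * b = b * x := h.inj (by
  rw [mul_assoc, hk, ← mul_assoc, ← mul_assoc] at e
  simpa using mul_right_cancel e)

theorem Fac.sq_one (F : Fac π z a f) (h : Ctx z n φ) {x : X} (e : π x = 1) : x * x = 1 := by
  rcases (F.ker x).1 e with rfl | rfl
  exacts [mul_one _, h.sq]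

theorem Fac.comm (F : Fac π z a f) (h : Ctx z n φ) {x y : X} (e : π x * π y = π y * π x) :
    Commute (x ^ 2) y := by
  rcases (F.ker (x * y * x⁻¹ * y⁻¹)).1 (by simp [e]) with e | e <;>
    rw [mul_inv_eq_iff_eq_mul, mul_inv_eq_iff_eq_mul] at e
  · exact Commute.pow_left (e.trans (by rw [one_mul])) 2
  · change x ^ 2 * y = y * x ^ 2
    rw [pow_two, mul_assoc, e, ← mul_assoc, ← mul_assoc, ← h.z_comm, mul_assoc z, e, ← mul_assoc, ← mul_assoc,
      h.sq, one_mul, mul_assoc]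

theorem Fac.gd (F : Fac π z a f) (h : Ctx z n φ) (h' : Ctx z n ψ) (hc : Cy ψ) {e : X} (h1 : π e = a)
    (h2 : φ e = ψ z) {w : X} (hw : Gd π a w) : φ w ∈ ψ.range := by
  obtain ⟨u, v, hu, hv, rfl, h4⟩ := hw
  have key : ∀ u, π u * a = a * π u → ∃ b k, InK ψ k ∧ φ (u ^ 2) = ψ b * k := fun u hu =>
    h'.dec _ (by rw [← h2, ← map_mul, (F.comm h (h1 ▸ hu)).eq, map_mul])
  obtain ⟨b, k, hk, e1⟩ := key u hu
  obtain ⟨c, l, hl, e2⟩ := key v hv
  have kl : InK ψ ⁅k, l⁆ := fun x =>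
    (((Commute.mul_left (hk x) (hl x)).mul_left (Commute.inv_left (hk x))).mul_left
      (Commute.inv_left (hl x))).eq
  have e3 : φ ⁅u ^ 2, v ^ 2⁆ = ψ ⁅b, c⁆ * ⁅k, l⁆ := by
    have k1 : ∀ x t, k * (ψ x * t) = ψ x * (k * t) := fun x t => by rw [← mul_assoc, hk, mul_assoc]
    have l1 : ∀ x t, l * (ψ x * t) = ψ x * (l * t) := fun x t => by rw [← mul_assoc, hl, mul_assoc]
    have k2 : ∀ x, k⁻¹ * ψ x = ψ x * k⁻¹ := fun x => (Commute.inv_left (hk x)).eq
    have l2 : ∀ x, l⁻¹ * ψ x = ψ x * l⁻¹ := fun x => (Commute.inv_left (hl x)).eq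
    have k3 : ∀ x t, k⁻¹ * (ψ x * t) = ψ x * (k⁻¹ * t) := fun x t => by rw [← mul_assoc, k2, mul_assoc]
    rw [map_commutatorElement, e1, e2]
    simp only [commutatorElement_def, map_mul, mul_inv_rev, ← map_inv, mul_assoc, k1, l1, l2, k3]
  have e4 : ψ (⁅b, c⁆ ^ 8) * ⁅k, l⁆ ^ 8 = 1 := by
    rw [map_pow, ← Commute.mul_pow (kl _).symm, ← e3, ← map_pow, show 8 = 4 + 4 from rfl, pow_add,
      F.sq_one h (by rw [map_pow, h4]), map_one]
  have e5 : InK ψ (ψ (⁅b, c⁆ ^ 8)) := fun x => by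
    rw [eq_inv_of_mul_eq_one_left e4]; exact (Commute.inv_left (kl.pow 8 x)).eq
  have e6 : ⁅k, l⁆ ^ 16 = 1 := by
    rw [show 16 = 8 + 8 from rfl, pow_add, eq_inv_of_mul_eq_one_right e4, ← mul_inv_rev, ← map_mul]
    rcases h'.of_inK e5 with e | e <;> simp [e, h'.sq]
  rw [e3, hc k l hk hl e6, mul_one]
  exact ⟨_, rfl⟩

theorem Fac.core (F : Fac π z a f) (h : Ctx z n φ) (h' : Ctx z n ψ) (hc : Cy ψ) {e e' : X} (h1 : π e = a)
    (h2 : φ e = ψ z) (h3 : π e' = a) (h4 : ψ e' = φ z) : False := by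
  obtain ⟨w, w', g1, g2, s1, s2⟩ := F.sq e h1
  obtain ⟨x', hx⟩ := mul_mem (F.gd h h' hc h1 h2 g1) (F.gd h h' hc h1 h2 g2)
  rw [← map_mul] at hx
  generalize w * w' = x at hx s1 s2
  have x2 : x' * x' = z := h'.inj (by rw [map_mul, hx, ← map_mul, s1, h2])
  have xe : x' * e' = e' * x' := h'.inj (by rw [map_mul, map_mul, hx, h4, ← map_mul, ← h.z_comm, map_mul])
  obtain ⟨f0, rfl⟩ := F.surj f
  have pf : π ((f0 ^ 2) ^ 3) = π f0 := by
    rw [← pow_mul, map_pow, show 2 * 3 = 5 + 1 from rfl, pow_succ, F.f5, one_mul]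
  have cf : ∀ y, π y * π f0 = π f0 * π y → (f0 ^ 2) ^ 3 * y = y * (f0 ^ 2) ^ 3 := fun y hy =>
    (F.comm h hy.symm).pow_left 3
  have p5 : ((f0 ^ 2) ^ 3) ^ 5 = 1 := by
    rw [← pow_mul, ← pow_mul, show 2 * (3 * 5) = (5 + 5) * 3 from rfl, pow_mul, pow_add,
      F.sq_one h (by rw [map_pow, F.f5]), one_pow]
  generalize (f0 ^ 2) ^ 3 = q at pf cf p5
  obtain ⟨f', k, hk, e1⟩ := h'.dec (φ q) (by rw [← h2, ← map_mul, cf e (h1 ▸ F.af), map_mul])
  have c1 := comm_dec h' hk (x := f') (b := e') (by rw [← e1, h4, ← map_mul, ← h.z_comm, map_mul])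
  have c2 := comm_dec h' hk (x := f') (b := x') (by rw [← e1, hx, ← map_mul, cf x s2, map_mul])
  have e2 : ψ (f' ^ 5) = (k ^ 5)⁻¹ := by
    rw [eq_inv_iff_mul_eq_one, map_pow, ← Commute.mul_pow (hk f').symm, ← e1, ← map_pow, p5, map_one]
  have e3 : π f' ^ 5 = 1 := by
    rw [← map_pow]
    exact (F.ker _).2 (h'.of_inK fun b => by rw [e2]; exact (Commute.inv_left (hk.pow 5 b)).eq)
  have z1 : z ≠ 1 := fun e => h.noroot 1 (fun b => by simp) (by simp [e])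
  by_cases e4 : π f' = 1
  · obtain ⟨w, g, ne⟩ := F.nc
    obtain ⟨w', hw⟩ := F.gd h h' hc h1 h2 g
    refine ne (pf ▸ ?_)
    rw [← map_mul, ← map_mul]
    refine congrArg π (h.inj ?_)
    rw [map_mul, map_mul, ← hw, e1, mul_assoc, hk, ← mul_assoc, ← mul_assoc, ← map_mul, ← map_mul,
      (h.cen f').2 ((F.ker _).1 e4)]
  · rcases F.cen (π f') (π x') (by rw [← h3, ← map_mul, c1, map_mul]) e3 e4
      (by rw [← h3, ← map_mul, xe, map_mul]) (by rw [← map_mul, ← c2, map_mul])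
      (by rw [← map_mul, x2, (F.ker z).2 (.inr rfl)]) with e5 | e5
    · exact z1 (x2 ▸ F.sq_one h e5)
    · have e6 := F.sq_one h (x := x' * e'⁻¹) (by rw [map_mul, map_inv, e5, h3, mul_inv_cancel])
      have e7 : e' * e' = 1 := h'.inj (by rw [map_mul, h4, ← map_mul, h.sq, map_one, map_one])
      rw [inv_eq_of_mul_eq_one_right e7, mul_assoc, ← mul_assoc e', ← xe, mul_assoc, e7, mul_one, x2] at e6
      exact z1 e6

theorem Fac.isolated (F : Fac π z a f) (h : Ctx z n φ) (hc : Cy φ) (g : G)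
    (e : g * φ z * g⁻¹ * φ z = φ z * (g * φ z * g⁻¹)) : g * φ z * g⁻¹ = φ z := by
  by_contra hne
  have key : ∀ {φ ψ : X →* G}, Ctx z n φ → Ctx z n ψ → ψ z * φ z = φ z * ψ z → ψ z ≠ φ z →
      ∃ (k e : X), π e = a ∧ (φ.comp (MulAut.conj k).toMonoidHom) e = ψ z := fun {φ ψ} h h' c ne => by
    obtain ⟨y, hy⟩ := h.mem_range h' c
    rcases F.inv y (h.inj (by rw [map_mul, hy, ← map_mul, h.sq, map_one, map_one])) with e | e
    · rcases (F.ker y).1 e with rfl | rfl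
      · exact absurd (by simpa using hy) (h'.noroot 1 fun b => by simp)
      · exact absurd hy.symm ne
    · obtain ⟨s, hs⟩ := isConj_iff.1 e
      obtain ⟨k, rfl⟩ := F.surj s
      exact ⟨k, k⁻¹ * y * k, by rw [map_mul, map_mul, map_inv, ← hs]; group, by simpa [mul_assoc] using hy⟩
  have hz : ∀ k, MulAut.conj k z = z := fun k => by
    rw [MulAut.conj_apply, ← h.z_comm, mul_inv_cancel_right]
  have h' := h.map (MulAut.conj g)
  obtain ⟨k, x, a1, a2⟩ := key h h' e hne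
  obtain ⟨l, y, b1, b2⟩ := key h' h e.symm (Ne.symm hne)
  exact F.core (h.comp _ (hz k)) (h'.comp _ (hz l)) (hc.map _ _) a1
    (a2.trans (congrArg _ (hz l).symm)) b1 (b2.trans (congrArg _ (hz k).symm))

end Cfsg.Agent.H57Ru
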