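/-
Squares and commutators in the double cover of the Rudvalis group.
-/
import Cfsg.Agent.H57.RuS1
import Cfsg.Agent.H57.RuS2

set_option autoImplicit false
set_option maxRecDepth 100000

namespace Cfsg.Agent.H57Ru

open Cfsg.Spor Cfsg.Agent.H14 Cfsg.Agent.H55 MulAction Subgroup
open scoped commutatorElement

attribute [local irreducible] tt Ta Tb Tf Tfi rho run hK vP rV cm1 cm2 cm3 cm4 gV

theorem star_gI (u : ℕ) : star (gI ^ u) * gI ^ u = 1 := by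
  rw [star_pow, ← mul_pow, show star gI * gI = 1 by decide, one_pow]

theorem step_spec {U : fourRu} {f : ℕ → ℕ} (hf : AP.Fn (rho.rangeRestrict U) f) {l : ℕ} (hl : l < 4060) :
    ∃ u : ℕ, ∀ q q', stepOK f l q q' = true → vP q ∈ Lm ∧ vP q' ∈ Lm ∧ gV U (vP q) = gI ^ u • vP q' := by
  have key : ∀ l < 4060, f l < 4060 ∧ ∃ u : ℕ, gV U (rV l) = gI ^ u • rV (f l) := fun l hl =>
    ⟨hf.lt hl, by rw [← finAM_fn.1 hf ⟨l, hl⟩]; exact rho_spec U ⟨l, hl⟩⟩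
  obtain ⟨-, u, hu⟩ := key l hl
  refine ⟨u, fun q q' h => ?_⟩
  simp only [stepOK, Bool.and_eq_true, blt_iff, beq_iff, decide_eq_true_iff, Bool.not_eq_true',
    decide_eq_false_iff_not] at h
  obtain ⟨⟨⟨h1, h2⟩, h3⟩, h4⟩ := h
  obtain ⟨h5, k, hk⟩ := key (q / 4) (by omega)
  have e : gV U (vP q) = gI ^ (q % 4 + k + 3 * (q' % 4)) • vP q' := by
    rw [vP_eq q, (iso_gV U).smul _ (rV_mem (by omega)), hk, h2, vP_eq q', smul_smul, smul_smul, ← pow_add,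
      ← pow_add, show q % 4 + k + 3 * (q' % 4) + q' % 4 = q % 4 + k + 4 * (q' % 4) by ring, pow_add _ _ (4 * _),
      pow_mul, gI_four, one_pow, mul_one]
  refine ⟨vP_mem h1, vP_mem (by omega), ?_⟩
  generalize q % 4 + k + 3 * (q' % 4) = m at e
  have e2 := (iso_gV U).hm_eq (rV_mem hl) (vP_mem h1)
  rw [hu, e, hm_smul_left, hm_smul_right, ← vP_four, ← vP_four, ← hK_eq, ← hK_eq, ← h3, ← mul_assoc,
    mul_left_eq_self₀, or_iff_left h4] at e2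
  rw [e, ← one_mul (gI ^ m), ← e2, mul_assoc, star_gI, mul_one]

theorem path_spec {U V : fourRu} {f g : ℕ → ℕ} (hf : AP.Fn (rho.rangeRestrict U) f)
    (hg : AP.Fn (rho.rangeRestrict V) g) {p : List ℕ} (h : pathOK f g p = true) :
    vP (nth p 2) ∈ Lm ∧ gV ⁅U, V⁆ (vP (nth p 2)) = vP (nth p 6) := by
  simp only [pathOK, Bool.and_eq_true, blt_iff] at h
  obtain ⟨⟨⟨⟨⟨h0, h1⟩, s1⟩, s2⟩, s3⟩, s4⟩ := h
  obtain ⟨a, ha⟩ := step_spec hf h0
  obtain ⟨b, hb⟩ := step_spec hg h1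
  obtain ⟨m3, m2, e1⟩ := hb _ _ s1
  obtain ⟨m4, -, e2⟩ := ha _ _ s2
  obtain ⟨-, m5, e3⟩ := hb _ _ s3
  obtain ⟨-, -, e4⟩ := ha _ _ s4
  have e : gV (⁅U, V⁆ * (V * U)) (vP (nth p 4)) = gV (U * V) (vP (nth p 4)) := by
    rw [commutatorElement_def]; congr 1; group
  rw [gV_mul _ _ m4, gV_mul _ _ m4, gV_mul _ _ m4, e2, e3, (iso_gV V).smul _ m3, (iso_gV U).smul _ m5, e1, e4,
    smul_smul, smul_smul, (iso_gV _).smul _ m2, ← pow_add, ← pow_add, add_comm b] at e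
  refine ⟨m2, ?_⟩
  have := congrArg (fun x => star (gI ^ (a + b)) • x) e
  simpa only [smul_smul, star_gI, one_smul] using this

variable {X : Type*} [Group X] {η : X →* fourRu}

theorem cm_spec {x y : X} {f g : ℕ → ℕ} (hf : AP.Fn (rho.rangeRestrict.comp η x) f)
    (hg : AP.Fn (rho.rangeRestrict.comp η y) g) {c : CM} (h : cmOK f g c = true) :
    AP.Fn (rho.rangeRestrict.comp η ⁅x, y⁆) (run lkR tt c.w) ∧
      (vP (nth c.p 2) ∈ Lm ∧ gV (η ⁅x, y⁆) (vP (nth c.p 2)) = vP (nth c.p 6)) ∧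
      vP (nth c.q 2) ∈ Lm ∧ gV (η ⁅x, y⁆) (vP (nth c.q 2)) = vP (nth c.q 6) := by
  simp only [cmOK, Bool.and_eq_true] at h
  obtain ⟨w, -, hw, -⟩ := validP.wf c.w
  rw [← run_eq] at hw
  have e := baseP.eq (hw.mul (hg.mul hf)) (hf.mul hg) h.1.1
  rw [map_commutatorElement η]
  refine ⟨?_, path_spec hf hg h.1.2, path_spec hf hg h.2⟩
  rwa [map_commutatorElement, commutatorElement_def, ← e, mul_assoc, ← mul_inv_rev, mul_inv_cancel_right]

theorem exists_lift (hs : Function.Surjective (rho.rangeRestrict.comp η)) (w : ℕ) :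
    ∃ x, AP.Fn (rho.rangeRestrict.comp η x) (run lkR tt w) := by
  obtain ⟨g, -, hg, -⟩ := validP.wf w
  obtain ⟨x, rfl⟩ := hs g
  exact ⟨x, run_eq lkR tt w ▸ hg⟩

theorem sq_spec (hs : Function.Surjective (rho.rangeRestrict.comp η)) {c : CM} (h : sqOK c = true) :
    ∃ w, Gd (rho.rangeRestrict.comp η) ea w ∧ AP.Fn (rho.rangeRestrict.comp η w) (run lkR tt c.w) ∧
      (vP (nth c.p 2) ∈ Lm ∧ gV (η w) (vP (nth c.p 2)) = vP (nth c.p 6)) ∧
      vP (nth c.q 2) ∈ Lm ∧ gV (η w) (vP (nth c.q 2)) = vP (nth c.q 6) := by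
  simp only [sqOK, Bool.and_eq_true] at h
  obtain ⟨u, hu⟩ := exists_lift hs c.u
  obtain ⟨v, hv⟩ := exists_lift hs c.v
  have e := cm_spec (x := u ^ 2) (y := v ^ 2) (by rw [map_pow]; exact hu.iter 2)
    (by rw [map_pow]; exact hv.iter 2) h.1.1.1
  exact ⟨_, ⟨u, v, cmt_sound hu fn_ea h.1.1.2, cmt_sound hv fn_ea h.1.2, rfl,
    baseP.eq (e.1.iter 4) AM.Fn.one h.2⟩, e⟩

theorem fac {z : X} (hs : Function.Surjective (rho.rangeRestrict.comp η))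
    (hk : ∀ x, rho.rangeRestrict.comp η x = 1 ↔ x = 1 ∨ x = z) (hz : z * z = 1) (hc : ∀ x, z * x = x * z) :
    Fac (rho.rangeRestrict.comp η) z ea ef := by
  have ne : ∀ {p q}, hK p 0 ≠ hK q 0 → vP p ≠ vP q := fun h e => h (by rw [hK_eq, hK_eq, e])
  obtain ⟨w1, g1, f1, ⟨m1, p1⟩, -, q1⟩ := sq_spec hs cM1.1
  obtain ⟨w2, g2, f2, ⟨-, p2⟩, -, q2⟩ := sq_spec hs cM2.1
  obtain ⟨w3, g3, f3, ⟨-, p3⟩, m3, q3⟩ := sq_spec hs cM2.2.1
  obtain ⟨-, a1, a2, a3, a4, a5⟩ := cM1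
  obtain ⟨-, -, b1, b2, b3, b4, b5, b6, b7⟩ := cM2
  rw [a3] at m1 p1
  refine ⟨hk, hs, fun y hy => ?_, ea_ef, ef_five, fun e he => ?_, ⟨w2, g2, fun e => b7 ?_⟩,
    fun _ _ => cen_five⟩
  · refine (inv_classes (by rw [← map_mul, hy, map_one])).imp_right fun h => h.resolve_right fun h => ?_
    obtain ⟨u, hu⟩ := exists_lift hs cm4.u
    obtain ⟨v, hv⟩ := exists_lift hs cm4.v
    obtain ⟨c1, c2, c3, c4, c5⟩ := cM4
    obtain ⟨f4, ⟨-, p4⟩, -, q4⟩ := cm_spec hu hv c1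
    rw [← baseP.eq f4 fn_eb c2] at h
    generalize ⁅u, v⁆ = b at h p4 q4
    obtain ⟨s, e⟩ := isConj_iff.1 h.symm
    obtain ⟨s, rfl⟩ := hs s
    have e1 : b * b = 1 := by
      have e2 : s * y * s⁻¹ * (s * y * s⁻¹) = 1 := by rw [conj_mul, hy]; group
      rcases (hk (b * (s * y * s⁻¹))).1 (by
        rw [map_mul, ← e, ← map_inv, ← map_mul, ← map_mul, ← map_mul, e2, map_one]) with e3 | e3
      · rw [eq_inv_of_mul_eq_one_left e3, ← mul_inv_rev, e2, inv_one]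
      · rw [eq_mul_inv_of_mul_eq e3, mul_assoc, ← mul_assoc _ z, ← hc, mul_assoc, ← mul_assoc, hz, one_mul,
          ← mul_inv_rev, e2, inv_one]
    refine ne c5 ?_
    rw [← q4, c4, ← p4, c3, ← gV_mul _ _ m1, ← map_mul, e1, map_one, gV_one m1]
  · have s1 : rho.rangeRestrict.comp η (w1 * w1) = ea := by
      rw [← sq, map_pow]; exact baseP.eq (f1.iter 2) fn_ea a2
    have f4 := f2.mul f3
    rw [← map_mul] at f4
    have s2 : rho.rangeRestrict.comp η (w2 * w3 * (w2 * w3)) = ea := by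
      rw [← sq, map_pow]; exact baseP.eq (f4.iter 2) fn_ea b2
    have n : w1 * w1 ≠ w2 * w3 * (w2 * w3) := fun e => ne a5 (by
      rw [← q1, a4, ← p1, ← gV_mul _ _ m1, ← map_mul, e, map_mul, map_mul, gV_mul _ _ m1, gV_mul _ _ m1, ← b3,
        p3, ← b4, p2, ← b5, gV_mul _ _ m3, q3, ← b6, q2])
    have k : ∀ x, rho.rangeRestrict.comp η x = ea → x = e ∨ x = z * e := fun x hx =>
      ((hk (x * e⁻¹)).1 (by rw [map_mul, map_inv, hx, he, mul_inv_cancel])).imp mul_inv_eq_one.1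
        mul_inv_eq_iff_eq_mul.1
    rcases k _ s1 with e1 | e1
    · exact ⟨w1, 1, g1, ⟨1, 1, by simp, by simp, by simp, by simp⟩, by rw [mul_one, e1], by
        rw [mul_one]; exact cmt_sound f1 fn_ef a1⟩
    · exact ⟨w2, w3, g2, g3, (k _ s2).resolve_right fun e2 => n (e1.trans e2.symm), cmt_sound f4 fn_ef b1⟩
  · exact (fn_ef.mul f2).eq (e ▸ f2.mul fn_ef) (i := 1) (by decide)

end Cfsg.Agent.H57Ru
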